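import Cfsg.Agent.H112.VU.Base
import Cfsg.Agent.H345.CusU
import Cfsg.Agent.H720.PV.Top
import Cfsg.Agent.H620.PNorm

/-!
# The rows `PSU_n(q)`, `n ≥ 4`, of S4555 and S4559 (helper112, task 3888)

* `exists_cusU_v` : the cuspidal datum of `H345.CusU` with `PVan`;
* `exists_chi` : an irreducible character of `GU_n(q)`, trivial on the scalars, vanishing at the elements of
  `SU_n(q)` of order prime to the characteristic with a fixed space of codimension two;
* `exists_elt` : such elements of order `p`, `p` a prime divisor of `q ^ 2 - 1`;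
* `psu_vOrdP` : `VOrdP p (PSU n F q)` for all primes `p` dividing `q ^ 2 - 1`, `n ≥ 4`.
-/

set_option autoImplicit false

open scoped ComplexConjugate

universe u

namespace Cfsg.Agent.H112.VU

open Cfsg Cfsg.Agent.LieClassical.HermBasic Cfsg.Agent.LieClassical.HermSiegel Matrix Module
open Cfsg.Agent.H113.PSU.Descent Cfsg.Agent.H477.HC Cfsg.Agent.H477.HC.CForm Cfsg.Agent.H53.HC
open Cfsg.Agent.H139.Cusp Cfsg.Agent.H720.PV Cfsg.Agent.Characters Cfsg.Agent.H345.CusU

/-- the cuspidal datum, with `PVan` -/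
theorem exists_cusU_v {K : Type u} [Field K] [Finite K] {q : ℕ} (hq : Nat.card K = q ^ 2) (k : ℕ) (hk : 2 ≤ k) :
    ∃ c : GL (Fin k) K → ℂ, Cus K k (CForm.powHom hq) (fun z => z ^ (q + 1) = 1) c ∧ PVan c := by
  classical
  have hk0 : 0 < k := by omega
  have hq2 : 2 ≤ q := CForm.two_le_of_card hq
  obtain ⟨L, _, _, _, hL⟩ := exists_L K k hk0
  obtain ⟨θ, hθ⟩ := exists_theta L
  have hcardL : Nat.card Lˣ = Nat.card K ^ k - 1 := by
    rw [Nat.card_units, Module.natCard_eq_pow_finrank (K := K), hL]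
  have ha : q + 1 ≠ 0 := by omega
  have hb : (q + 1) * q ≠ 0 := Nat.mul_ne_zero ha (by omega)
  have hR : Regular K k (powTheta θ (q + 1) ha) := (regular_powTheta_iff hθ ha hL).2 (by
    intro i hi hik h
    rw [hq] at h
    obtain ⟨h1, h2⟩ := size_reg hq2 hi hik
    exact absurd (Nat.le_of_dvd h1 h) (by omega))
  refine ⟨psi L (powTheta θ (q + 1) ha), ⟨psi_isIrr _ hL hR, psi_isCusp L _, ?_, ?_, ?_⟩, psi_pvan L _ hk0⟩
  · intro h
    have h1 : ∀ g : ((Fin k → K) →ₗ[K] (Fin k → K))ˣ,
        cusp L (powTheta θ (q + 1) ha) (g : (Fin k → K) →ₗ[K] (Fin k → K)) =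
        cusp L (conjTheta (powTheta θ ((q + 1) * q) hb)) (g : (Fin k → K) →ₗ[K] (Fin k → K)) := by
      intro g
      let A : GL (Fin k) K := Matrix.GeneralLinearGroup.toLin.symm g
      have h2 := congrFun h A
      rw [Function.comp_apply, MonoidHom.comp_apply,
        psi_map_pow (powTheta θ (q + 1) ha) (powTheta θ ((q + 1) * q) hb) hL hq
          (fun x => by rw [powTheta_apply, powTheta_apply, map_pow, ← pow_mul, mul_comm q]),
        psi_invT _ hL] at h2
      have h4 : ∀ θ₁ : L →*₀ ℂ, psi L θ₁ A = cusp L θ₁ (g : (Fin k → K) →ₗ[K] (Fin k → K)) := by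
        intro θ₁
        have h5 : Matrix.GeneralLinearGroup.toLin A = g := MulEquiv.apply_symm_apply _ g
        rw [← h5]
        rfl
      rw [h4, h4, cusp_star] at h2
      exact h2.symm
    obtain ⟨i, hi, h2⟩ := (cusp_eq_iff (V := Fin k → K) (powTheta θ (q + 1) ha)
      (conjTheta (powTheta θ ((q + 1) * q) hb))
      (by rw [Module.finrank_fin_fun, hL]) (by rw [hL]; exact hR)).1 h1
    rw [hL] at hi
    have h3 := (conj_powTheta_eq_iff hθ ha hb (pow_ne_zero i (Nat.card_pos (α := K)).ne')).1 h2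
    rw [hcardL, hq] at h3
    exact size_dual hq2 hk hi h3
  · intro z hz
    have h1 := psi_scalar (powTheta θ (q + 1) ha) hL z 1
    rw [mul_one] at h1
    rw [h1, powTheta_eq_one ha, one_mul]
    rw [← map_pow, ← Units.val_pow_eq_pow_val, hz, Units.val_one, map_one]
  · rw [psi_one L _ hk0, degP_eq_Ico]

variable {F : Type u} [Field F] [Fintype F] {q n : ℕ}

/-- **the character** -/
theorem exists_chi (hF : Fintype.card F = q ^ 2) {k n' : ℕ} (hk : 2 ≤ k) (hn' : n' ≤ 1) :
    ∃ χ : GU (k + (k + n')) F q → ℂ, IsIrrCharacter _ χ ∧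
      (∀ (z : GU (k + (k + n')) F q) (c : F), c ^ (q + 1) = 1 →
        (∀ v, ((z : GL (Fin (k + (k + n'))) F) : Matrix (Fin (k + (k + n'))) (Fin (k + (k + n'))) F).mulVec v = c • v) →
          χ z = χ 1) ∧
      ∀ (m : ℕ), (m : F) ≠ 0 → ∀ x : SU (k + (k + n')) F q, x ∈ XX m →
        χ (eSU (k + (k + n')) F q x : GU (k + (k + n')) F q) = 0 := by
  classical
  have hq : Nat.card F = q ^ 2 := by rw [Nat.card_eq_fintype_card, hF]
  obtain ⟨p, hp⟩ := CharP.exists F
  have hpr : p.Prime := (CharP.char_is_prime_or_zero F p).resolve_right (CharP.char_ne_zero_of_finite F p)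
  have : Fact p.Prime := ⟨hpr⟩
  obtain ⟨c, hc, hv⟩ := exists_cusU_v hq k hk
  obtain ⟨⟨W₀, hW₀⟩, -⟩ := hermF_frame (p := p) hq k n'
  obtain ⟨χ, hχ, -, hχz, hχ0⟩ := exists_char_v (hermF F hq (k + (k + n'))) hW₀ hc hv
  refine ⟨χ ∘ (isoGU hq (k + (k + n'))).toMonoidHom,
    Core.isIrr_comp (isoGU hq _).toMonoidHom (isoGU hq _).surjective hχ, fun z c hcq hz => ?_, fun m hm x hx => ?_⟩
  · change χ (isoGU hq _ z) = χ (isoGU hq _ 1)
    rw [map_one]
    have hc0 : c ≠ 0 := by
      rintro rfl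
      rw [zero_pow (Nat.succ_ne_zero q)] at hcq
      exact zero_ne_one hcq
    refine hχz _ (Units.mk0 c hc0) ?_ fun v => ?_
    · apply Units.ext
      rw [Units.val_pow_eq_pow_val, Units.val_mk0, Units.val_one, hcq]
    · rw [isoGU_apply, hz v, Units.val_mk0]
  · change χ (isoGU hq _ (eSU _ F q x : GU _ F q)) = 0
    set s : (hermF F hq (k + (k + n'))).iso := isoGU hq _ (eSU _ F q x : GU _ F q) with hs
    have hsv : ∀ v, (s : (Fin (k + (k + n')) → F) ≃ₗ[F] (Fin (k + (k + n')) → F)) v = act x v := fun v => rfl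
    have hsm : (s : (Fin (k + (k + n')) → F) ≃ₗ[F] (Fin (k + (k + n')) → F)) ^ m = 1 := by
      have h1 : s ^ m = 1 := by
        rw [hs, ← map_pow, ← Subgroup.coe_pow, ← map_pow, hx.1, map_one, Subgroup.coe_one, map_one]
      have h2 := congrArg Subtype.val h1
      rwa [Subgroup.coe_pow, Subgroup.coe_one] at h2
    have hker : LinearMap.ker (((s : (Fin (k + (k + n')) → F) ≃ₗ[F] (Fin (k + (k + n')) → F)) :
        (Fin (k + (k + n')) → F) →ₗ[F] (Fin (k + (k + n')) → F)) - LinearMap.id) = fixS x := by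
      ext v
      rw [LinearMap.mem_ker, LinearMap.sub_apply, LinearMap.id_apply, sub_eq_zero]
      exact Iff.rfl
    have h1 := finrank_fix_add_mov (s : (Fin (k + (k + n')) → F) ≃ₗ[F] (Fin (k + (k + n')) → F))
    rw [hker, Module.finrank_fin_fun] at h1
    have h2 := hx.2
    refine hχ0 s m hm hsm (by omega) (exists_moved_of_dim _ hm hsm ?_)
    rw [Module.finrank_fin_fun]
    omega

omit [Fintype F] in
theorem fixS_finrank_of {x : SU n F q} (α β : (Fin n → F) →ₗ[F] F)
    (hsurj : ∀ a b : F, ∃ v, α v = a ∧ β v = b) (h : ∀ v, act x v = v ↔ α v = 0 ∧ β v = 0) :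
    finrank F (fixS x) + 2 = n := by
  have hker : LinearMap.ker (α.prod β) = fixS x := by
    ext v
    rw [LinearMap.mem_ker, LinearMap.prod_apply, mem_fixS, h]
    exact Prod.mk_eq_zero
  have hrange : LinearMap.range (α.prod β) = ⊤ := by
    rw [LinearMap.range_eq_top]
    rintro ⟨a, b⟩
    obtain ⟨v, h1, h2⟩ := hsurj a b
    exact ⟨v, Prod.ext h1 h2⟩
  have h1 := LinearMap.finrank_range_add_finrank_ker (α.prod β)
  rw [hrange, hker, finrank_top, Module.finrank_fin_fun, Module.finrank_prod, Module.finrank_self] at h1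
  omega

/-- an element of order `p`, `p ∣ q + 1` -/
theorem exists_elt_plus (hF : Fintype.card F = q ^ 2) (hn : 2 ≤ n) {p : ℕ} [hp : Fact p.Prime] (hd : p ∣ q + 1) :
    ∃ x : SU n F q, x ∈ XX p := by
  classical
  obtain ⟨l, hl⟩ : ∃ l : Fˣ, orderOf l = p := by
    apply exists_prime_orderOf_dvd_card'
    rw [card_units_eq hF]
    exact Dvd.dvd.mul_right hd _
  have hlp : (l : F) ^ p = 1 := by
    rw [← Units.val_pow_eq_pow_val, ← hl, pow_orderOf_eq_one, Units.val_one]
  have hlq : (l : F) ^ (q + 1) = 1 := by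
    obtain ⟨d, hd⟩ := hd
    rw [hd, pow_mul, hlp, one_pow]
  have hl1 : (l : F) ≠ 1 := by
    intro h
    have h1 : l = 1 := Units.ext h
    rw [h1, orderOf_one] at hl
    exact hp.1.one_lt.ne hl
  have hl0 : (l : F) ≠ 0 := l.ne_zero
  obtain ⟨m, rfl⟩ : ∃ m, n = m + 2 := ⟨n - 2, by omega⟩
  let a : Fin (m + 2) → F := Fin.cons (l : F) (Fin.cons ((l : F)⁻¹) fun _ => 1)
  have ha0 : a 0 = l := rfl
  have ha1 : a 1 = (l : F)⁻¹ := rfl
  have ha2 : ∀ i : Fin m, a i.succ.succ = 1 := fun i => rfl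
  have hprod : ∏ i, a i = 1 := by
    rw [Fin.prod_univ_succ, Fin.prod_univ_succ]
    simp only [ha2]
    rw [Finset.prod_const_one, mul_one]
    exact mul_inv_cancel₀ hl0
  have hnorm : ∀ i, a i ^ (q + 1) = 1 := by
    intro i
    refine Fin.cases ?_ (fun i => Fin.cases ?_ (fun i => ?_) i) i
    · exact hlq
    · change ((l : F)⁻¹) ^ (q + 1) = 1
      rw [inv_pow, hlq, inv_one]
    · rw [ha2, one_pow]
  let x : SU (m + 2) F q := Cfsg.Agent.LieClassical.SUBasic.suDiag q a hprod hnorm
  have hx : ∀ v, act x v = fun i => a i * v i := by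
    intro v
    funext i
    change (Matrix.diagonal a *ᵥ v) i = _
    rw [Matrix.mulVec_diagonal]
  refine ⟨x, ?_, ?_⟩
  · have h1 : ∀ (j : ℕ) v, act (x ^ j) v = fun i => a i ^ j * v i := by
      intro j
      induction j with
      | zero => intro v; rw [pow_zero, act_one]; funext i; rw [pow_zero, one_mul]
      | succ j ih =>
        intro v
        rw [pow_succ', act_mul, ih, hx]
        funext i
        rw [pow_succ']; ring
    apply ext_act
    intro v
    rw [h1, act_one]
    funext i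
    have : a i ^ p = 1 := by
      refine Fin.cases ?_ (fun i => Fin.cases ?_ (fun i => ?_) i) i
      · exact hlp
      · change ((l : F)⁻¹) ^ p = 1
        rw [inv_pow, hlp, inv_one]
      · rw [ha2, one_pow]
    rw [this, one_mul]
  · refine fixS_finrank_of (LinearMap.proj 0) (LinearMap.proj 1) (fun s t => ?_) fun v => ?_
    · exact ⟨Fin.cons s (Fin.cons t fun _ => 0), rfl, rfl⟩
    · rw [hx]
      constructor
      · intro h
        have h0 := congrFun h 0
        have h1 := congrFun h 1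
        simp only [ha0, ha1] at h0 h1
        constructor
        · have : ((l : F) - 1) * v 0 = 0 := by linear_combination h0
          exact (mul_eq_zero.1 this).resolve_left (sub_ne_zero.2 hl1)
        · have : ((l : F)⁻¹ - 1) * v 1 = 0 := by linear_combination h1
          refine (mul_eq_zero.1 this).resolve_left (sub_ne_zero.2 fun h2 => hl1 ?_)
          exact inv_eq_one.1 h2
      · rintro ⟨h0, h1⟩
        rw [LinearMap.proj_apply] at h0 h1
        funext i
        refine Fin.cases ?_ (fun i => Fin.cases ?_ (fun i => ?_) i) i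
        · rw [h0, mul_zero]
        · change a 1 * v 1 = v 1
          rw [h1, mul_zero]
        · rw [ha2, one_mul]

/-- an element of order `p`, `p ∣ q - 1`, `p ∤ q + 1` -/
theorem exists_elt_minus (hF : Fintype.card F = q ^ 2) (hn : 2 ≤ n) {p : ℕ} [hp : Fact p.Prime] (hd : p ∣ q - 1)
    (hd' : ¬ p ∣ q + 1) : ∃ x : SU n F q, x ∈ XX p := by
  classical
  have hq2 := two_le hF
  obtain ⟨l, hl⟩ : ∃ l : Fˣ, orderOf l = p := by
    apply exists_prime_orderOf_dvd_card'
    rw [card_units_eq hF]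
    exact Dvd.dvd.mul_left hd _
  have hlp : (l : F) ^ p = 1 := by
    rw [← Units.val_pow_eq_pow_val, ← hl, pow_orderOf_eq_one, Units.val_one]
  have hl0 : (l : F) ≠ 0 := l.ne_zero
  have hlq : (l : F) ^ q = l := by
    obtain ⟨d, hd⟩ := hd
    have : q = p * d + 1 := by omega
    rw [this, pow_succ, pow_mul, hlp, one_pow, one_mul]
  have hl1 : (l : F) ≠ 1 := by
    intro h
    have h1 : l = 1 := Units.ext h
    rw [h1, orderOf_one] at hl
    exact hp.1.one_lt.ne hl
  set a : F := (l : F) with ha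
  obtain ⟨e, f, -, -, -, -, -, hee, hff, hef⟩ := Cfsg.Agent.LieClassical.HermGen.exists_hyp_pair (q := q) hF
    (i := (⟨0, by omega⟩ : Fin n)) (j := ⟨1, by omega⟩) (by
      intro h; have := congrArg Fin.val h; simp at this)
  have hfe : hermForm n F q f e = 1 := by rw [herm_swap hF, hef, one_pow]
  set M : Matrix (Fin n) (Fin n) F := 1 + vecMulVec ((a - 1) • e) (fun i => f i ^ q) +
    vecMulVec ((a⁻¹ - 1) • f) (fun i => e i ^ q) with hM
  have hdot : ∀ u v : Fin n → F, (fun i => u i ^ q) ⬝ᵥ v = hermForm n F q v u := by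
    intro u v
    rw [herm_def, dotProduct]
    exact Finset.sum_congr rfl fun i _ => mul_comm _ _
  have hMv : ∀ v, M *ᵥ v = v + ((a - 1) * hermForm n F q v f) • e + ((a⁻¹ - 1) * hermForm n F q v e) • f := by
    intro v
    rw [hM, Matrix.add_mulVec, Matrix.add_mulVec, Matrix.one_mulVec, Matrix.vecMulVec_mulVec,
      Matrix.vecMulVec_mulVec, hdot, hdot]
    funext i
    simp only [Pi.add_apply, Pi.smul_apply, smul_eq_mul, MulOpposite.smul_eq_mul_unop, MulOpposite.unop_op]
    ring
  have hainv : (a⁻¹) ^ q = a⁻¹ := by rw [inv_pow, hlq]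
  have hiso : ∀ v w, hermForm n F q (M *ᵥ v) (M *ᵥ w) = hermForm n F q v w := by
    intro v w
    rw [hMv, hMv]
    simp only [herm_add_left, herm_add_right hF, herm_smul_left, herm_smul_right, hee, hff, hef, hfe, mul_pow,
      sub_pow_q hF, one_pow, hlq, hainv]
    rw [herm_swap hF e w, herm_swap hF f w, pow_q_pow_q hF, pow_q_pow_q hF]
    have h1 : a * a⁻¹ = 1 := mul_inv_cancel₀ hl0
    linear_combination (hermForm n F q v f * hermForm n F q e w + hermForm n F q v e * hermForm n F q f w) * h1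
  -- the powers
  have hMe : ∀ v, hermForm n F q (M *ᵥ v) e = a⁻¹ * hermForm n F q v e := by
    intro v
    rw [hMv]
    simp only [herm_add_left, herm_smul_left, hee, hfe]
    ring
  have hMf : ∀ v, hermForm n F q (M *ᵥ v) f = a * hermForm n F q v f := by
    intro v
    rw [hMv]
    simp only [herm_add_left, herm_smul_left, hff, hef]
    ring
  have hpow : ∀ (j : ℕ) v, (M ^ j) *ᵥ v = v + ((a ^ j - 1) * hermForm n F q v f) • e +
      (((a⁻¹) ^ j - 1) * hermForm n F q v e) • f := by
    intro j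
    induction j with
    | zero => intro v; simp
    | succ j ih =>
      intro v
      rw [pow_succ, ← Matrix.mulVec_mulVec, ih, hMe, hMf, hMv]
      funext i
      simp only [Pi.add_apply, Pi.smul_apply, smul_eq_mul]
      ring
  have hMp : M ^ p = 1 := by
    apply Matrix.ext_iff_mulVec.2
    intro v
    rw [hpow, hlp, inv_pow, hlp, inv_one, sub_self, zero_mul, zero_mul, zero_smul, zero_smul, add_zero, add_zero,
      Matrix.one_mulVec]
  have hdet : M.det = 1 := by
    have h1 : M.det ^ p = 1 := by rw [← Matrix.det_pow, hMp, Matrix.det_one]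
    have h2 : M.det ^ (q + 1) = 1 := Cfsg.Agent.ClassicalGeometry.GUBasic.det_pow hF hiso
    have h3 : (p).Coprime (q + 1) := (Nat.Prime.coprime_iff_not_dvd hp.1).2 hd'
    have h4 := pow_gcd_eq_one.2 ⟨h1, h2⟩
    rwa [h3, pow_one] at h4
  let x : SU n F q := mkSU M hdet hiso
  have hx : ∀ v, act x v = M *ᵥ v := fun v => rfl
  refine ⟨x, ?_, ?_⟩
  · apply mat_injective
    have h1 : ∀ j : ℕ, mat (x ^ j) = M ^ j := by
      intro j
      induction j with
      | zero => rw [pow_zero, pow_zero, mat_one]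
      | succ j ih => rw [pow_succ, pow_succ, mat_mul, ih]; rfl
    rw [h1, hMp, mat_one]
  · have hlin : ∀ u : Fin n → F, ∃ α : (Fin n → F) →ₗ[F] F, ∀ v, α v = hermForm n F q v u := fun u =>
      ⟨⟨⟨fun v => hermForm n F q v u, fun v w => herm_add_left v w u⟩, fun c v => herm_smul_left c v u⟩, fun v => rfl⟩
    obtain ⟨α, hα⟩ := hlin f
    obtain ⟨β, hβ⟩ := hlin e
    refine fixS_finrank_of α β (fun s t => ⟨s • e + t • f, ?_, ?_⟩) fun v => ?_
    · rw [hα]
      simp only [herm_add_left, herm_smul_left, hff, hef]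
      ring
    · rw [hβ]
      simp only [herm_add_left, herm_smul_left, hee, hfe]
      ring
    · rw [hx, hα, hβ]
      constructor
      · intro h
        have h1 := hMf v
        have h2 := hMe v
        rw [h] at h1 h2
        constructor
        · have : (a - 1) * hermForm n F q v f = 0 := by linear_combination -h1
          exact (mul_eq_zero.1 this).resolve_left (sub_ne_zero.2 hl1)
        · have : (a⁻¹ - 1) * hermForm n F q v e = 0 := by linear_combination -h2
          refine (mul_eq_zero.1 this).resolve_left (sub_ne_zero.2 fun h3 => hl1 ?_)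
          exact inv_eq_one.1 h3
      · rintro ⟨h1, h2⟩
        rw [hMv, h1, h2, mul_zero, mul_zero, zero_smul, zero_smul, add_zero, add_zero]

theorem exists_elt (hF : Fintype.card F = q ^ 2) (hn : 2 ≤ n) {p : ℕ} [hp : Fact p.Prime] (hd : p ∣ q ^ 2 - 1) :
    ∃ x : SU n F q, x ∈ XX p := by
  by_cases h : p ∣ q + 1
  · exact exists_elt_plus hF hn h
  · refine exists_elt_minus hF hn ?_ h
    have h1 : q ^ 2 - 1 = (q + 1) * (q - 1) := by
      have := Nat.sq_sub_sq q 1
      rwa [one_pow] at this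
    rw [h1] at hd
    exact (hp.1.dvd_mul.1 hd).resolve_left h

theorem order_psu (hF : Fintype.card F = q ^ 2) (hn : 3 ≤ n) {p : ℕ} [hp : Fact p.Prime] {x : SU n F q}
    (hx : x ∈ XX p) : orderOf (QuotientGroup.mk x : PSU n F q) = p := by
  apply orderOf_eq_prime
  · rw [← QuotientGroup.mk_pow, hx.1, QuotientGroup.mk_one]
  · intro h
    rw [QuotientGroup.eq_one_iff] at h
    obtain ⟨c, hcn, hcq, rfl⟩ := (Cfsg.Agent.LieClassical.SUBasic.mem_center_SU_iff hF hn x).1 h
    have hact : ∀ v, act (Cfsg.Agent.LieClassical.SUBasic.suScalar q c hcn hcq) v = c • v := fun v =>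
      Cfsg.Agent.ClassicalGeometry.PSUAutBasic.act_suScalar hcn hcq v
    have h2 := hx.2
    have h3 : fixS (Cfsg.Agent.LieClassical.SUBasic.suScalar q c hcn hcq) ≠ ⊥ := by
      intro h0
      rw [h0, finrank_bot] at h2
      omega
    obtain ⟨v, hv, hv0⟩ := (Submodule.ne_bot_iff _).1 h3
    rw [mem_fixS, hact] at hv
    have hc1 : c = 1 := by
      have h4 : (c - 1) • v = 0 := by rw [sub_smul, one_smul, hv, sub_self]
      exact sub_eq_zero.1 ((smul_eq_zero.1 h4).resolve_right hv0)
    have h5 : fixS (Cfsg.Agent.LieClassical.SUBasic.suScalar q c hcn hcq) = ⊤ := by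
      rw [eq_top_iff]
      intro w _
      rw [mem_fixS, hact, hc1, one_smul]
    rw [h5, finrank_top, Module.finrank_fin_fun] at h2
    omega

/-- **the row `PSU_n(q)`, `n ≥ 4`** -/
theorem psu_vOrdP (hF : Fintype.card F = q ^ 2) (hn : 4 ≤ n) {p : ℕ} (hp : p.Prime) (hd : p ∣ q ^ 2 - 1) :
    H620.PNorm.VOrdP p (PSU n F q) := by
  have : Fact p.Prime := ⟨hp⟩
  have hpF : (p : F) ≠ 0 := by
    intro h0
    obtain ⟨r, hr⟩ := CharP.exists F
    have hrr : r.Prime := (CharP.char_is_prime_or_zero F r).resolve_right (CharP.char_ne_zero_of_finite F r)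
    have h1 : r ∣ p := (CharP.cast_eq_zero_iff F r p).1 h0
    have h2 : r = p := (Nat.prime_dvd_prime_iff_eq hrr hp).1 h1
    subst h2
    have h3 : r ∣ q ^ 2 := by
      rw [← hF]
      exact (CharP.cast_eq_zero_iff F r _).1 (FiniteField.cast_card_eq_zero F)
    have hq2 := two_le hF
    have h4 : 1 ≤ q ^ 2 := Nat.one_le_pow _ _ (by omega)
    have h5 := (Nat.dvd_sub_iff_right h4 h3).1 hd
    exact hrr.one_lt.ne' (Nat.dvd_one.1 h5)
  obtain ⟨x, hx⟩ := exists_elt (n := n) hF (by omega) hd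
  refine ⟨QuotientGroup.mk x, order_psu hF (by omega) hx, ?_⟩
  obtain ⟨k, n', hk, hn', rfl⟩ : ∃ k n', 2 ≤ k ∧ n' ≤ 1 ∧ n = k + (k + n') :=
    ⟨n / 2, n % 2, by omega, by omega, by omega⟩
  obtain ⟨χ, hχ, hz, h0⟩ := exists_chi hF hk hn'
  exact vz_psu hF hn hpF hχ hz (fun y hy => h0 p hpF y hy) x hx

end Cfsg.Agent.H112.VU
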